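import Cfsg.Agent.H167.RV.TorB
import Cfsg.Agent.H167.EX.ChkAll

/-!
# TEAM RV: the combinatorial checks mod `s` (helper167)
-/

set_option autoImplicit false

namespace Cfsg.Agent.H167.RV

open Cfsg Cfsg.Lie Cfsg.Lie.ChevalleyDatum Cfsg.Agent.ChevalleyStructure Cfsg.Agent.Nodes.RGDChev
open Cfsg.Agent.H167.EX
open Cfsg.Agent.ChevalleyStructure.RootVec

/-- the coordinates of the roots -/
def crd (D : ChevalleyDatum) (l b : ℕ) : List ℤ := (List.range l).map fun i => rt D b i

/-- scalar product of lists -/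
def dotL : List ℤ → List ℤ → ℤ
  | a :: x, b :: y => a * b + dotL x y
  | _, _ => 0

/-- the values mod `s` of `c ·` the functionals, as one number -/
def cdS (s : ℕ) (c : ℤ) (x : List ℤ) : List (List ℤ) → ℕ
  | [] => 0
  | n :: N => ((c * dotL n x) % s).toNat + s * cdS s c x N

/-- the entry of the table: index, code, the allowed indices, the codes of the multiples -/
def entry (D : ChevalleyDatum) (s : ℕ) (N : List (List ℤ)) (g : List ℕ) (l b : ℕ) : (ℕ × ℕ) × List ℕ × List ℕ :=
  ((b, cdS s 1 (crd D l b) N), [b, D.neg b, g.getD b 0, D.neg (g.getD b 0)],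
    (List.range s).map fun c : ℕ => cdS s (c : ℤ) (crd D l b) N)

def chkT (T : List ((ℕ × ℕ) × List ℕ × List ℕ)) : Bool :=
  T.all fun u => !(Nat.beq u.1.2 0) && T.all fun v => !(u.2.2.any (Nat.beq v.1.2)) || u.2.1.any (Nat.beq v.1.1)

theorem dotL_eq {l : ℕ} (n : Fin l → ℤ) (x : Fin l → ℤ) :
    dotL (List.ofFn n) (List.ofFn x) = ∑ i, n i * x i := by
  induction l with
  | zero => simp [dotL]
  | succ l ih =>
    rw [List.ofFn_succ, List.ofFn_succ, Fin.sum_univ_succ]
    show n 0 * x 0 + dotL _ _ = _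
    rw [ih]

theorem crd_eq (D : ChevalleyDatum) (l b : ℕ) : crd D l b = List.ofFn (vec D l b) := by
  unfold crd
  apply List.ext_getElem
  · simp
  · intro i h1 h2
    simp [vec_apply]

theorem cdS_eq {s : ℕ} {c : ℤ} {x x' : List ℤ} {N : List (List ℤ)}
    (h : ∀ n ∈ N, (s : ℤ) ∣ dotL n x' - c * dotL n x) : cdS s 1 x' N = cdS s (c % s) x N := by
  induction N with
  | nil => rfl
  | cons n N ih =>
    show ((1 * dotL n x') % s).toNat + s * cdS s 1 x' N = ((c % s * dotL n x) % s).toNat + s * cdS s (c % s) x N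
    rw [ih fun n' hn' => h n' (List.mem_cons_of_mem _ hn'), one_mul]
    have h1 := h n List.mem_cons_self
    have h2 : dotL n x' % s = (c * dotL n x) % s := ((Int.modEq_iff_dvd).2 h1).symm
    have h3 : (c % s * dotL n x) % s = (c * dotL n x) % s := (Int.mod_modEq c s).mul_right _
    rw [h2, h3]

theorem cdS_zero {s : ℕ} {x : List ℤ} {N : List (List ℤ)} (h : ∀ n ∈ N, (s : ℤ) ∣ dotL n x) : cdS s 1 x N = 0 := by
  induction N with
  | nil => rfl
  | cons n N ih =>
    show ((1 * dotL n x) % s).toNat + s * cdS s 1 x N = 0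
    rw [ih fun n' hn' => h n' (List.mem_cons_of_mem _ hn'), one_mul, Int.emod_eq_zero_of_dvd (h n List.mem_cons_self)]
    rfl

theorem chkS_of {D : ChevalleyDatum} {s l m : ℕ} (hs : 0 < s) (Nf : Fin m → Fin l → ℤ) {N : List (List ℤ)}
    (hN : N = List.ofFn fun j => List.ofFn (Nf j)) {g : List ℕ}
    (h : chkT ((List.range D.nroots).map (entry D s N g l)) = true) :
    ChkS D s (fun j b => ∑ i, Nf j i * vec D l b i) (fun b => g.getD b 0) := by
  have hdot : ∀ j b, dotL (List.ofFn (Nf j)) (crd D l b) = ∑ i, Nf j i * vec D l b i := fun j b => by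
    rw [crd_eq, dotL_eq]
  have h1 := List.all_eq_true.1 h
  have key : ∀ b < D.nroots, cdS s 1 (crd D l b) N ≠ 0 ∧ ∀ b' < D.nroots,
      cdS s 1 (crd D l b') N ∈ ((List.range s).map fun c : ℕ => cdS s (c : ℤ) (crd D l b) N) →
      b' ∈ [b, D.neg b, g.getD b 0, D.neg (g.getD b 0)] := by
    intro b hb
    have h2 := h1 _ (List.mem_map.2 ⟨b, List.mem_range.2 hb, rfl⟩)
    rw [Bool.and_eq_true] at h2
    refine ⟨fun h0 => ?_, fun b' hb' hm => ?_⟩
    · have h3 : (!(Nat.beq (cdS s 1 (crd D l b) N) 0)) = true := h2.1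
      rw [h0] at h3
      exact absurd h3 (by decide)
    · have h3 := List.all_eq_true.1 h2.2 _ (List.mem_map.2 ⟨b', List.mem_range.2 hb', rfl⟩)
      rw [Bool.or_eq_true, Bool.not_eq_true'] at h3
      rcases h3 with h3 | h3
      · exfalso
        have h4 : ((entry D s N g l b).2.2.any (Nat.beq (entry D s N g l b').1.2)) = true :=
          List.any_eq_true.2 ⟨_, hm, Nat.beq_refl _⟩
        rw [h4] at h3
        exact absurd h3 (by decide)
      · obtain ⟨x, hx, hx'⟩ := List.any_eq_true.1 h3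
        have h4 : b' = x := Nat.eq_of_beq_eq_true hx'
        rw [h4]
        exact hx
  refine ⟨fun b hb => ?_, fun b hb b' hb' c hc => ?_⟩
  · by_contra hcon
    push Not at hcon
    apply (key b hb).1
    apply cdS_zero
    intro n hn
    rw [hN, List.mem_ofFn] at hn
    obtain ⟨j, rfl⟩ := hn
    rw [hdot]
    exact hcon j
  · have h2 : cdS s 1 (crd D l b') N = cdS s (c % s) (crd D l b) N := by
      apply cdS_eq
      intro n hn
      rw [hN, List.mem_ofFn] at hn
      obtain ⟨j, rfl⟩ := hn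
      rw [hdot, hdot]
      exact hc j
    have hs' : (0 : ℤ) < s := by exact_mod_cast hs
    obtain ⟨n, hn⟩ : ∃ n : ℕ, c % s = n := ⟨(c % s).toNat, (Int.toNat_of_nonneg (Int.emod_nonneg _ hs'.ne')).symm⟩
    have hns : n < s := by
      have := Int.emod_lt_of_pos c hs'
      rw [hn] at this
      exact_mod_cast this
    have h3 := (key b hb).2 b' hb' (by
      rw [h2, hn]
      exact List.mem_map.2 ⟨n, List.mem_range.2 hns, rfl⟩)
    simpa using h3

/-- strong orthogonality, trivial case -/
theorem ort_id {D : ChevalleyDatum} {w : List ℕ} (h : oneB D w = true) : Ort D (fun b => (List.range D.nroots).getD b 0)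
    where
  one := of_oneB h
  lt b hb := by
    rw [List.getD_eq_getElem _ _ (by simpa using hb), List.getElem_range]
    exact hb
  ort b hb := Or.inl (by rw [List.getD_eq_getElem _ _ (by simpa using hb), List.getElem_range])

theorem ort_of {D : ChevalleyDatum} {g w : List ℕ} (h2 : oneB D w = true) (h4 : ortB D g = true) :
    Ort D (fun b => g.getD b 0) where
  one := of_oneB h2
  lt b hb := by
    have h5 := List.all_eq_true.1 h4 b (List.mem_range.2 hb)
    rw [Bool.and_eq_true, decide_eq_true_iff] at h5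
    exact h5.1
  ort b hb := by
    have h5 := List.all_eq_true.1 h4 b (List.mem_range.2 hb)
    rw [Bool.and_eq_true, Bool.or_eq_true, decide_eq_true_iff, decide_eq_true_iff, Bool.and_eq_true, Bool.and_eq_true,
      Bool.and_eq_true, Bool.and_eq_true, decide_eq_true_iff] at h5
    rcases h5.2 with h6 | ⟨⟨⟨⟨h6, h7⟩, h8⟩, h9⟩, h10⟩
    · exact Or.inl h6
    · exact Or.inr ⟨h6, h7, h8, h9, h10⟩

end Cfsg.Agent.H167.RV
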