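import Cfsg.Agent.H167.RV.ChkS
import Cfsg.Agent.H167.EX.ChkE6

/-!
# TEAM RV: the combinatorial checks mod `3`, `E6` (helper167)
-/

set_option autoImplicit false

namespace Cfsg.Agent.H167.RV

open Cfsg Cfsg.Lie Cfsg.Lie.ChevalleyDatum Cfsg.Agent.ChevalleyStructure Cfsg.Agent.Nodes.RGDChev
open Cfsg.Agent.ChevalleyStructure.CoxeterGeom Cfsg.Agent.ChevalleyStructure.CoxeterGeomTypes
open Cfsg.Agent.H167.EX

def NE6 : List (List ℤ) :=
  [[2, 0, -1, 0, 0, 0], [0, 2, 0, -1, 0, 0], [-1, 0, 2, -1, 0, 0], [0, -1, -1, 2, -1, 0], [0, 0, 0, -1, 2, -1],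
  [0, 0, 0, 0, -1, 2]]

theorem NE6_eq : NE6 = List.ofFn fun j => List.ofFn (cartanOf chevE6 6 j) := by decide +kernel

theorem chkE6_three : chkT ((List.range chevE6.nroots).map (entry chevE6 3 NE6 (List.range chevE6.nroots) 6)) = true := by
  decide +kernel

theorem ortE6' : Ort chevE6 (fun b => (List.range chevE6.nroots).getD b 0) := ort_id oneE6

theorem chkSE6_three : ChkS chevE6 3 (fun (j : Fin 6) b => pairing (cartanOf chevE6 6) j (vec chevE6 6 b))
    (fun b => (List.range chevE6.nroots).getD b 0) := chkS_of (by norm_num) _ NE6_eq chkE6_three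

/-- the functionals fixed by the graph automorphism -/
def NfE6 : Fin 4 → Fin 6 → ℤ :=
  ![![1, 0, 0, 0, 0, 1], ![0, 0, 1, 0, 1, 0], ![0, 1, 0, 0, 0, 0], ![0, 0, 0, 1, 0, 0]]

def NgE6 : List (List ℤ) := [[1, 0, 0, 0, 0, 1], [0, 0, 1, 0, 1, 0], [0, 1, 0, 0, 0, 0], [0, 0, 0, 1, 0, 0]]

theorem NgE6_eq : NgE6 = List.ofFn fun j => List.ofFn (NfE6 j) := by decide +kernel

theorem chkgE6 : chkT ((List.range chevE6.nroots).map (entry chevE6 3 NgE6 gE6 6)) = true := by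
  decide +kernel

theorem ortgE6 : Ort chevE6 (fun b => gE6.getD b 0) := ort_of oneE6 ortE6

theorem chkSgE6 : ChkS chevE6 3 (fun (j : Fin 4) b => ∑ i, NfE6 j i * vec chevE6 6 b i) (fun b => gE6.getD b 0) :=
  chkS_of (by norm_num) _ NgE6_eq chkgE6

end Cfsg.Agent.H167.RV
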