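import Cfsg.Agent.H167.RV.ChkS
import Cfsg.Agent.H167.EX.ChkE7

/-!
# TEAM RV: the combinatorial checks mod `3` and mod `5`, `E7` (helper167)
-/

set_option autoImplicit false

namespace Cfsg.Agent.H167.RV

open Cfsg Cfsg.Lie Cfsg.Lie.ChevalleyDatum Cfsg.Agent.ChevalleyStructure Cfsg.Agent.Nodes.RGDChev
open Cfsg.Agent.ChevalleyStructure.CoxeterGeom Cfsg.Agent.ChevalleyStructure.CoxeterGeomTypes
open Cfsg.Agent.H167.EX

def NE7 : List (List ℤ) :=
  [[2, 0, -1, 0, 0, 0, 0], [0, 2, 0, -1, 0, 0, 0], [-1, 0, 2, -1, 0, 0, 0], [0, -1, -1, 2, -1, 0, 0],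
  [0, 0, 0, -1, 2, -1, 0], [0, 0, 0, 0, -1, 2, -1], [0, 0, 0, 0, 0, -1, 2]]

theorem NE7_eq : NE7 = List.ofFn fun j => List.ofFn (cartanOf chevE7 7 j) := by decide +kernel

theorem chkE7_three : chkT ((List.range chevE7.nroots).map (entry chevE7 3 NE7 (List.range chevE7.nroots) 7)) = true := by
  decide +kernel

theorem chkE7_five : chkT ((List.range chevE7.nroots).map (entry chevE7 5 NE7 (List.range chevE7.nroots) 7)) = true := by
  decide +kernel

theorem ortE7 : Ort chevE7 (fun b => (List.range chevE7.nroots).getD b 0) := ort_id oneE7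

theorem chkSE7_three : ChkS chevE7 3 (fun (j : Fin 7) b => pairing (cartanOf chevE7 7) j (vec chevE7 7 b))
    (fun b => (List.range chevE7.nroots).getD b 0) := chkS_of (by norm_num) _ NE7_eq chkE7_three

theorem chkSE7_five : ChkS chevE7 5 (fun (j : Fin 7) b => pairing (cartanOf chevE7 7) j (vec chevE7 7 b))
    (fun b => (List.range chevE7.nroots).getD b 0) := chkS_of (by norm_num) _ NE7_eq chkE7_five

end Cfsg.Agent.H167.RV
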