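import Cfsg.Agent.H167.RV.ChkS
import Cfsg.Agent.H167.EX.ChkF4

/-!
# TEAM RV: the combinatorial checks mod `3`, `5`, `7`, `F4` (helper167)
-/

set_option autoImplicit false

namespace Cfsg.Agent.H167.RV

open Cfsg Cfsg.Lie Cfsg.Lie.ChevalleyDatum Cfsg.Agent.ChevalleyStructure Cfsg.Agent.Nodes.RGDChev
open Cfsg.Agent.ChevalleyStructure.CoxeterGeom Cfsg.Agent.ChevalleyStructure.CoxeterGeomTypes
open Cfsg.Agent.H167.EX

def NF4 : List (List ℤ) := [[2, -1, 0, 0], [-1, 2, -2, 0], [0, -1, 2, -1], [0, 0, -1, 2]]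

theorem NF4_eq : NF4 = List.ofFn fun j => List.ofFn (cartanOf chevF4 4 j) := by decide +kernel

theorem chkF4_three : chkT ((List.range chevF4.nroots).map (entry chevF4 3 NF4 (List.range chevF4.nroots) 4)) = true := by
  decide +kernel

theorem chkF4_five : chkT ((List.range chevF4.nroots).map (entry chevF4 5 NF4 (List.range chevF4.nroots) 4)) = true := by
  decide +kernel

theorem ortF4 : Ort chevF4 (fun b => (List.range chevF4.nroots).getD b 0) := ort_id oneF4

theorem chkSF4_three : ChkS chevF4 3 (fun (j : Fin 4) b => pairing (cartanOf chevF4 4) j (vec chevF4 4 b))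
    (fun b => (List.range chevF4.nroots).getD b 0) := chkS_of (by norm_num) _ NF4_eq chkF4_three

theorem chkSF4_five : ChkS chevF4 5 (fun (j : Fin 4) b => pairing (cartanOf chevF4 4) j (vec chevF4 4 b))
    (fun b => (List.range chevF4.nroots).getD b 0) := chkS_of (by norm_num) _ NF4_eq chkF4_five

end Cfsg.Agent.H167.RV
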