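import Cfsg.Agent.H167.EX.OneB

/-!
# TEAM RV: groups normalised by toral `s`-elements, the `SL₂` part, any characteristic (helper167)

* `exists_tri'` : elements of `SL₂(k)` are conjugate to triangular ones;
* `comm_of_conj` : `A` commutes with `E A E⁻¹` implies `E A = A E` (`A`, `E` of odd order, `A` semisimple);
* `central_of_RR'`, `exists_odd'`, `comm_LC'`, `sq_of_cent'` : as in `H167.EX`, without `2 ≠ 0`.
-/

set_option autoImplicit false
set_option linter.unusedSectionVars false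

namespace Cfsg.Agent.H167.RV

open CoxeterSystem Cfsg Cfsg.Lie Cfsg.Lie.ChevalleyDatum
open Cfsg.Agent.ChevalleyStructure Cfsg.Agent.ChevalleyStructure.Elts Cfsg.Agent.ChevalleyStructure.CoxeterGeom
  Cfsg.Agent.ChevalleyStructure.CoxeterGeomTypes Cfsg.Agent.ChevalleyStructure.NPerm
open Cfsg.Agent.Tits.Roots Cfsg.Agent.Tits.Core Cfsg.Agent.Nodes Cfsg.Agent.Nodes.Reps Cfsg.Agent.Nodes.BNOf
  Cfsg.Agent.Nodes.RGDChev Cfsg.Agent.Nodes.Bruhat Cfsg.Agent.Nodes.NormalForm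
open Cfsg.Agent.KFacts.RgdField Cfsg.Agent.KFacts.RgdChevCoord
open Cfsg.Agent.BpExc Cfsg.Agent.BpExc.TorCent Cfsg.Agent.BpExc.TorChev Cfsg.Agent.BpExc.Tow
  Cfsg.Agent.BpExc.TowChev Cfsg.Agent.BpExc.Fr Cfsg.Agent.BpExc.Pair Cfsg.Agent.BpExc.LangFr Cfsg.Agent.GpExc.Field
  Cfsg.Agent.BpExc.TorAll
open Cfsg.Agent.H469.Exc Cfsg.Agent.H469.Exc.SigFr
open Cfsg.Agent.Nodes.RGDFoldSL
open Cfsg.Agent.ChevalleyStructure.SL2Hom (up lo mem_closure_SL2)
open Cfsg.Agent.H167.EX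
open Module

universe u v

section SL

variable {k : Type u} [Field k]

/-- every element of `SL₂(k)` is conjugate to an upper triangular one -/
theorem exists_tri' [IsAlgClosed k] (A : SL k) : ∃ P : SL k, (P⁻¹ * A * P).1 1 0 = 0 := by
  by_cases hb : A.1 0 1 = 0
  · obtain ⟨w1, w2, w3, w4⟩ := wS_entries (one_ne_zero (α := k))
    refine ⟨wS 1, ?_⟩
    rw [low, w1, w3, hb]
    ring
  · -- a root of `b t² + (a - d) t - c`
    obtain ⟨t, ht⟩ := IsAlgClosed.exists_root (Polynomial.C (A.1 0 1) * Polynomial.X ^ 2 +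
      Polynomial.C (A.1 0 0 - A.1 1 1) * Polynomial.X + Polynomial.C (- A.1 1 0)) (by
      rw [Polynomial.degree_quadratic hb]
      norm_num)
    obtain ⟨w1, w2, w3, w4⟩ := lo_entries t
    refine ⟨lo t, ?_⟩
    rw [low, w1, w3]
    rw [Polynomial.IsRoot.def] at ht
    simp only [Polynomial.eval_add, Polynomial.eval_mul, Polynomial.eval_C, Polynomial.eval_pow,
      Polynomial.eval_X] at ht
    linear_combination -ht

theorem eq_one_of_trace [IsAlgClosed k] {A : SL k} {m : ℕ} (hm : Odd m) (hmk : (m : k) ≠ 0) (hA : A ^ m = 1)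
    (h4 : (A.1 0 0 + A.1 1 1) ^ 2 = 4) : A = 1 := by
  obtain ⟨P, hP⟩ := exists_tri' A
  set B := P⁻¹ * A * P with hB
  have hBm : B ^ m = 1 := by
    have : B = P⁻¹ * A * P⁻¹⁻¹ := by rw [inv_inv]
    rw [this, conj_pow, hA, mul_one, mul_inv_cancel]
  -- the trace
  have htr : B.1 0 0 + B.1 1 1 = A.1 0 0 + A.1 1 1 := by
    have hd := det_eq P
    rw [hB, mul00, mul11, mul00, mul01, mul10, mul11, inv00, inv01, inv10, inv11]
    linear_combination (A.1 0 0 + A.1 1 1) * hd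
  have hdB := det_eq B
  rw [hP, mul_zero, sub_zero] at hdB
  have hx : B.1 0 0 = B.1 1 1 := by
    have h5 : (B.1 0 0 - B.1 1 1) ^ 2 = 0 := by
      rw [htr.symm] at h4
      linear_combination h4 - 4 * hdB
    exact sub_eq_zero.1 (pow_eq_zero_iff two_ne_zero |>.1 h5)
  have hx2 : B.1 0 0 ^ 2 = 1 := by rw [pow_two]; nth_rewrite 2 [hx]; exact hdB
  have hxm : B.1 0 0 ^ m = 1 := by
    rw [← (tri_pow hP m).2, hBm]
    rfl
  have hx1 : B.1 0 0 = 1 := by
    obtain ⟨j, rfl⟩ := hm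
    rw [pow_add, pow_mul, hx2, one_pow, one_mul, pow_one] at hxm
    exact hxm
  have hup : ∀ n : ℕ, B ^ n = up ((n : k) * B.1 0 1) := by
    intro n
    induction n with
    | zero => rw [pow_zero, Nat.cast_zero, zero_mul, up_zero]
    | succ n ih =>
      have hB1 : B = up (B.1 0 1) := by
        obtain ⟨u1, u2, u3, u4⟩ := up_entries (B.1 0 1)
        exact sl_ext (by rw [u1, hx1]) (by rw [u2]) (by rw [u3, hP]) (by rw [u4, ← hx, hx1])
      rw [pow_succ, ih]
      conv_lhs => rw [show up ((n : k) * B.1 0 1) * B = up ((n : k) * B.1 0 1) * up (B.1 0 1) by rw [← hB1]]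
      rw [up_add]
      congr 1
      push_cast
      ring
  have h6 := hup m
  rw [hBm] at h6
  have h7 : (m : k) * B.1 0 1 = 0 := by
    have := congrArg (fun C : SL k => C.1 0 1) h6
    exact this.symm
  have h8 : B.1 0 1 = 0 := (mul_eq_zero.1 h7).resolve_left hmk
  have hB1 : B = 1 := sl_ext (by rw [hx1]; rfl) (by rw [h8]; rfl) (by rw [hP]; rfl) (by rw [← hx, hx1]; rfl)
  have e : A = P * B * P⁻¹ := by rw [hB]; group
  rw [e, hB1, mul_one, mul_inv_cancel]

/-- **`A` commutes with its conjugate `A'` of the same trace: `A' = A` or `A' = A⁻¹`.** -/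
theorem eq_or_inv [IsAlgClosed k] {A A' : SL k} {m : ℕ} (hm : Odd m) (hmk : (m : k) ≠ 0) (hA : A ^ m = 1)
    (hc : A' * A = A * A') (htr : A'.1 0 0 + A'.1 1 1 = A.1 0 0 + A.1 1 1) : A' = A ∨ A' = A⁻¹ ∨ A = 1 := by
  by_cases h4 : (A.1 0 0 + A.1 1 1) ^ 2 = 4
  · exact Or.inr (Or.inr (eq_one_of_trace hm hmk hA h4))
  have hne : ¬ (A.1 0 1 = 0 ∧ A.1 1 0 = 0 ∧ A.1 0 0 - A.1 1 1 = 0) := by
    rintro ⟨h1, h2, h3⟩
    apply h4
    have hd := det_eq A
    linear_combination 4 * hd + (A.1 0 0 - A.1 1 1) * h3 + 4 * A.1 1 0 * h1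
  have a1 : (A' * A).1 0 0 = (A * A').1 0 0 := by rw [hc]
  have a2 : (A' * A).1 0 1 = (A * A').1 0 1 := by rw [hc]
  have a3 : (A' * A).1 1 0 = (A * A').1 1 0 := by rw [hc]
  rw [mul00, mul00] at a1
  rw [mul01, mul01] at a2
  rw [mul10, mul10] at a3
  obtain ⟨c, c1, c2, c3⟩ : ∃ c : k, A'.1 0 1 = c * A.1 0 1 ∧ A'.1 1 0 = c * A.1 1 0 ∧
      A'.1 0 0 - A'.1 1 1 = c * (A.1 0 0 - A.1 1 1) := by
    refine prop_of ?_ ?_ ?_ hne
    · linear_combination a1
    · linear_combination -a2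
    · linear_combination a3
  set τ := A.1 0 0 + A.1 1 1 with hτ
  set α := A'.1 0 0 - c * A.1 0 0 with hα
  have b1 : A'.1 0 0 = α + c * A.1 0 0 := by rw [hα]; ring
  have b2 : A'.1 1 1 = α + c * A.1 1 1 := by rw [hα]; linear_combination -c3
  have hd := det_eq A
  have hd' := det_eq A'
  rw [b1, b2, c1, c2] at hd'
  rw [b1, b2] at htr
  have e1 : 2 * α = τ * (1 - c) := by rw [hτ]; linear_combination htr
  have e2 : (c - 1) * (c + 1) = α * (α - τ) := by
    have : α ^ 2 + α * c * τ + c ^ 2 = 1 := by rw [hτ]; linear_combination hd' - c ^ 2 * hd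
    linear_combination this - α * e1
  have e3 : α * (α - τ) * (τ ^ 2 - 4) = 0 := by
    linear_combination (-τ ^ 2) * e2 + (2 * α + (c - 1) * τ - 4 * α + 2 * τ) * e1
  have h5 : α = 0 ∨ α = τ := by
    rcases mul_eq_zero.1 e3 with h5 | h5
    · rcases mul_eq_zero.1 h5 with h6 | h6
      · exact Or.inl h6
      · exact Or.inr (sub_eq_zero.1 h6)
    · exact absurd (sub_eq_zero.1 h5) h4
  have hcc : c = 1 ∨ c = -1 := by
    have h6 : (c - 1) * (c + 1) = 0 := by
      rw [e2]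
      rcases h5 with h5 | h5 <;> rw [h5] <;> ring
    rcases mul_eq_zero.1 h6 with h7 | h7
    · exact Or.inl (sub_eq_zero.1 h7)
    · exact Or.inr (eq_neg_of_add_eq_zero_left h7)
  have isA : c = 1 → α = 0 → A' = A := by
    intro h1 h2
    refine sl_ext ?_ ?_ ?_ ?_
    · rw [b1, h1, h2]; ring
    · rw [c1, h1]; ring
    · rw [c2, h1]; ring
    · rw [b2, h1, h2]; ring
  have isInv : c = -1 → α = τ → A' = A⁻¹ := by
    intro h1 h2
    refine sl_ext ?_ ?_ ?_ ?_
    · rw [b1, h1, h2, inv00, hτ]; ring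
    · rw [c1, h1, inv01]; ring
    · rw [c2, h1, inv10]; ring
    · rw [b2, h1, h2, inv11, hτ]; ring
  rcases hcc with h1 | h1
  · rcases h5 with h2 | h2
    · exact Or.inl (isA h1 h2)
    · rw [h1, h2, sub_self, mul_zero] at e1
      rcases mul_eq_zero.1 e1 with h3 | h3
      · right; left
        refine isInv ?_ h2
        rw [h1]
        linear_combination h3
      · exact Or.inl (isA h1 (h2.trans h3))
  · rcases h5 with h2 | h2
    · rw [h1, h2, mul_zero] at e1
      have h3 : (2 : k) * τ = 0 := by linear_combination -e1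
      rcases mul_eq_zero.1 h3 with h4 | h4
      · left
        refine isA ?_ h2
        rw [h1]
        linear_combination -h4
      · right; left
        exact isInv h1 (h2.trans h4.symm)
    · exact Or.inr (Or.inl (isInv h1 h2))

theorem trace_conj (E A : SL k) : (E * A * E⁻¹).1 0 0 + (E * A * E⁻¹).1 1 1 = A.1 0 0 + A.1 1 1 := by
  have hd := det_eq E
  rw [mul00, mul11, mul00, mul01, mul10, mul11, inv00, inv01, inv10, inv11]
  linear_combination (A.1 0 0 + A.1 1 1) * hd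

/-- **If `A` commutes with `E A E⁻¹` then `A` commutes with `E`.** -/
theorem comm_of_conj [IsAlgClosed k] {A E : SL k} {m n : ℕ} (hm : Odd m) (hmk : (m : k) ≠ 0) (hA : A ^ m = 1)
    (hn : Odd n) (hE : E ^ n = 1) (hc : (E * A * E⁻¹) * A = A * (E * A * E⁻¹)) : E * A = A * E := by
  rcases eq_or_inv hm hmk hA hc (trace_conj E A) with h | h | h
  · exact mul_inv_eq_iff_eq_mul.1 h
  · -- `E²` commutes with `A`
    have h1 : E ^ 2 * A = A * E ^ 2 := by
      have h2 : E * A = A⁻¹ * E := mul_inv_eq_iff_eq_mul.1 h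
      have h3 : E * A⁻¹ = A * E := by
        have h4 : E * A⁻¹ * E⁻¹ = (E * A * E⁻¹)⁻¹ := by group
        have h5 : E * A⁻¹ * E⁻¹ = A := by rw [h4, h, inv_inv]
        exact mul_inv_eq_iff_eq_mul.1 h5
      calc E ^ 2 * A = E * (E * A) := by rw [pow_two, mul_assoc]
        _ = E * A⁻¹ * E := by rw [h2, mul_assoc]
        _ = A * E ^ 2 := by rw [h3, pow_two, mul_assoc]
    obtain ⟨j, hj⟩ := hn
    have h2 : E = (E ^ 2) ^ (j + 1) := by
      rw [← pow_mul, show 2 * (j + 1) = (2 * j + 1) + 1 by ring, ← hj, pow_succ, hE, one_mul]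
    have h3 : Commute (E ^ 2) A := h1
    have h4 := h3.pow_left (j + 1)
    rw [← h2] at h4
    exact h4
  · rw [h, mul_one, one_mul]

end SL

section Chev

variable {D : ChevalleyDatum} {l : ℕ} {M : CoxeterMatrix (Fin l)} (hp : IsType D l M) {k : Type u} [Field k]
  {s : ℕ} (hs : s < D.nroots)

/-- `ph` is injective -/
theorem ph_inj' [IsAlgClosed k] (p : ℕ) [Fact p.Prime] [CharP k p] (hk : LocFin k)
    (he : ∃ r < D.nroots, HMatDiagAll.expo D s r = 1) {A : SL k} (hA : ph hp k hs A = 1) : A = 1 := by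
  obtain ⟨P, hP⟩ := exists_tri' A
  have hB : ph hp k hs (P⁻¹ * A * P) = 1 := by
    rw [map_mul, map_mul, hA, mul_one, ← map_mul, inv_mul_cancel, map_one]
  obtain ⟨h0, hB1⟩ := tri_eq hP
  set x := (P⁻¹ * A * P).1 0 0 with hx
  set y := (x)⁻¹ * (P⁻¹ * A * P).1 0 1 with hy
  rw [hB1, map_mul, ph_up] at hB
  have hy0 : y = 0 := by
    refine xs_TT hp hs p hk ?_
    rw [eq_inv_of_mul_eq_one_right hB]
    exact inv_mem (ph_hS_mem hp hs h0)
  rw [hy0] at hB hB1
  obtain ⟨r, hr, he⟩ := he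
  have hx1 : x = 1 := by
    have h3 : xs hp.inList s (0 : k) = 1 := by rw [← ph_up hp hs, up_zero, map_one]
    rw [h3, mul_one] at hB
    have h4 := ch_ph_hS hp hs p hk h0 hr
    rw [hB, ch_one hp p hk hr, he, zpow_one] at h4
    exact h4.symm
  have h5 : P⁻¹ * A * P = 1 := by
    rw [hB1, hx1, up_zero, mul_one]
    apply Subtype.ext
    rw [coe_hS one_ne_zero]
    ext a b
    fin_cases a <;> fin_cases b <;> simp
  have h6 : A = P * (P⁻¹ * A * P) * P⁻¹ := by group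
  rw [h6, h5, mul_one, mul_inv_cancel]

/-- the first component of `(A, 1) ∈ RR` is central -/
theorem central_of_RR' [IsAlgClosed k] (p : ℕ) [Fact p.Prime] [CharP k p] (hk : LocFin k)
    (he : ∃ r < D.nroots, HMatDiagAll.expo D s r = 1) {A : SL k} (hA : (A, 1) ∈ RR hp k hs) (P : SL k) :
    A * P = P * A := by
  rw [mem_RR, mul_one, ← map_inv] at hA
  have h3 := Subgroup.mem_centralizer_iff.1 hA _ ⟨P⁻¹, rfl⟩
  have h4 : P⁻¹ * A⁻¹ * (A⁻¹ * P⁻¹)⁻¹ = 1 := by
    apply ph_inj' hp hs p hk he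
    rw [map_mul, map_inv, map_mul, map_mul, h3, mul_inv_cancel]
  have h5 : P⁻¹ * A⁻¹ = A⁻¹ * P⁻¹ := mul_inv_eq_one.1 h4
  have h6 := congrArg (fun x => x⁻¹) h5
  simp only [mul_inv_rev, inv_inv] at h6
  exact h6

theorem exists_odd' [IsAlgClosed k] (p : ℕ) [Fact p.Prime] [CharP k p] (hk : LocFin k)
    (he : ∃ r < D.nroots, HMatDiagAll.expo D s r = 1) {v : ↥(D.group k)} (hv : v ∈ LC hp (k := k) hs) {m : ℕ}
    (hm : Odd m) (hvm : v ^ m = 1) : ∃ A : SL k, A ^ m = 1 ∧ (A, v) ∈ RR hp k hs := by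
  obtain ⟨A, hA⟩ := (mem_LC_iff hp hs).1 hv
  have h1 : (A ^ m, (1 : ↥(D.group k))) ∈ RR hp k hs := by
    have := pow_mem hA m
    rw [Prod.pow_mk, hvm] at this
    exact this
  have h3 := sq_of_central (central_of_RR' hp hs p hk he h1)
  refine ⟨A ^ (m + 1), ?_, ?_⟩
  · obtain ⟨j, hj⟩ := hm
    have e : (A ^ (m + 1)) ^ m = ((A ^ m) ^ 2) ^ (j + 1) := by
      rw [← pow_mul, ← pow_mul, ← pow_mul, mul_comm (m + 1) m]
      congr 2
      omega
    rw [e, h3, one_pow]
  · have := pow_mem hA (m + 1)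
    rw [Prod.pow_mk, pow_succ v, hvm, one_mul] at this
    exact this

/-- **The commutator of elements of odd order of `LC`, if it commutes with them, centralises `ph (SL₂)`.** -/
theorem comm_LC' [IsAlgClosed k] (p : ℕ) [Fact p.Prime] [CharP k p] (hk : LocFin k)
    (he : ∃ r < D.nroots, HMatDiagAll.expo D s r = 1) {v w : ↥(D.group k)} (hv : v ∈ LC hp (k := k) hs)
    (hw : w ∈ LC hp (k := k) hs) {m : ℕ} (hm : Odd m) (hvm : v ^ m = 1) (hwm : w ^ m = 1)
    (h3 : v * w * v⁻¹ * w⁻¹ * v = v * (v * w * v⁻¹ * w⁻¹)) (h4 : v * w * v⁻¹ * w⁻¹ * w = w * (v * w * v⁻¹ * w⁻¹)) :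
    v * w * v⁻¹ * w⁻¹ ∈ Subgroup.centralizer ((ph hp k hs).range : Set ↥(D.group k)) := by
  obtain ⟨A, hA, hAv⟩ := exists_odd' hp hs p hk he hv hm hvm
  obtain ⟨B, hB, hBw⟩ := exists_odd' hp hs p hk he hw hm hwm
  have hZ := RR_comm hp hs hAv hBw
  have h5 := RR_comm hp hs hZ hAv
  have h6 := RR_comm hp hs hZ hBw
  set u := v * w * v⁻¹ * w⁻¹ with hu
  have e1 : u * v * u⁻¹ * v⁻¹ = 1 := by rw [h3]; group
  have e2 : u * w * u⁻¹ * w⁻¹ = 1 := by rw [h4]; group
  rw [e1] at h5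
  rw [e2] at h6
  have h7 : A * B = B * A := sl_comm hm hA hB (central_of_RR' hp hs p hk he h5) (central_of_RR' hp hs p hk he h6)
  have h8 : A * B * A⁻¹ * B⁻¹ = 1 := by rw [h7]; group
  rw [h8, mem_RR, map_one, inv_one, one_mul] at hZ
  exact hZ

/-- **`v` semisimple of odd order `m` commuting with `y v y⁻¹`, `y` of odd order `n`: `[y, v]` centralises
`ph (SL₂)`.** -/
theorem comm_LC_norm [IsAlgClosed k] (p : ℕ) [Fact p.Prime] [CharP k p] (hk : LocFin k)
    (he : ∃ r < D.nroots, HMatDiagAll.expo D s r = 1) {v y : ↥(D.group k)} (hv : v ∈ LC hp (k := k) hs)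
    (hy : y ∈ LC hp (k := k) hs) {m n : ℕ} (hm : Odd m) (hmk : (m : k) ≠ 0) (hvm : v ^ m = 1) (hn : Odd n)
    (hyn : y ^ n = 1) (hc : (y * v * y⁻¹) * v = v * (y * v * y⁻¹)) :
    y * v * y⁻¹ * v⁻¹ ∈ Subgroup.centralizer ((ph hp k hs).range : Set ↥(D.group k)) := by
  obtain ⟨A, hA, hAv⟩ := exists_odd' hp hs p hk he hv hm hvm
  obtain ⟨E, hE, hEy⟩ := exists_odd' hp hs p hk he hy hn hyn
  have h1 : (E * A * E⁻¹, y * v * y⁻¹) ∈ RR hp k hs := RR_mul hp hs (RR_mul hp hs hEy hAv) (RR_inv hp hs hEy)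
  have h2 := RR_comm hp hs h1 hAv
  have e1 : (y * v * y⁻¹) * v * (y * v * y⁻¹)⁻¹ * v⁻¹ = 1 := by rw [hc]; group
  rw [e1] at h2
  have hcen := central_of_RR' hp hs p hk he h2
  set A' := E * A * E⁻¹ with hA'
  have hA'm : A' ^ m = 1 := by rw [hA', conj_pow, hA, mul_one, mul_inv_cancel]
  set Z := A' * A * A'⁻¹ * A⁻¹ with hZ
  have hZ2 : Z ^ 2 = 1 := sq_of_central hcen
  have hZ1 : Z = 1 := by
    have h3 : A' * A * A'⁻¹ = Z * A := by rw [hZ]; group
    have h4 : (A' * A * A'⁻¹) ^ m = 1 := by rw [conj_pow, hA, mul_one, mul_inv_cancel]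
    have hcm : Commute Z A := hcen A
    rw [h3, hcm.mul_pow, hA, mul_one] at h4
    exact eq_one_of_odd hZ2 hm h4
  have hAA : A' * A = A * A' := by
    have : A' * A = Z * (A * A') := by rw [hZ]; group
    rw [this, hZ1, one_mul]
  have hEA := comm_of_conj hm hmk hA hn hE hAA
  have h5 := RR_comm hp hs hEy hAv
  have h6 : E * A * E⁻¹ * A⁻¹ = 1 := by rw [hEA]; group
  rw [h6, mem_RR, map_one, inv_one, one_mul] at h5
  exact h5

end Chev

/-- strongly orthogonal pairs -/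
structure Ort (D : ChevalleyDatum) (g : ℕ → ℕ) : Prop where
  one : ∀ b < D.nroots, ∃ r < D.nroots, HMatDiagAll.expo D b r = 1
  lt : ∀ b < D.nroots, g b < D.nroots
  ort : ∀ b < D.nroots, g b = b ∨ (g b ≠ D.neg b ∧ (D.commTerms b (g b)).isEmpty = true ∧
    (D.commTerms (D.neg b) (g b)).isEmpty = true ∧ (D.commTerms b (D.neg (g b))).isEmpty = true ∧
    (D.commTerms (D.neg b) (D.neg (g b))).isEmpty = true)

section Q

variable {D : ChevalleyDatum} {l : ℕ} {M : CoxeterMatrix (Fin l)} (hp : IsType D l M) {k : Type u} [Field k]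

theorem sq_of_cent' [IsAlgClosed k] (p : ℕ) [Fact p.Prime] [CharP k p] (hk : LocFin k)
    {g : ℕ → ℕ} (K : Ort D g) {b : ℕ} (hb : b < D.nroots) {x : ↥(D.group k)}
    (hx : x ∈ (ph hp k hb).range ⊔ (ph hp k (K.lt b hb)).range)
    (h3 : x ∈ Subgroup.centralizer ((ph hp k hb).range : Set ↥(D.group k)))
    (h4 : x ∈ Subgroup.centralizer ((ph hp k (K.lt b hb)).range : Set ↥(D.group k))) : x ^ 2 = 1 := by
  have one : ∀ {s : ℕ} (hs : s < D.nroots) (Z : SL k),
      ph hp k hs Z ∈ Subgroup.centralizer ((ph hp k hs).range : Set ↥(D.group k)) → ph hp k hs Z ^ 2 = 1 := by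
    intro s hs Z hZ
    have h5 : (Z, (1 : ↥(D.group k))) ∈ RR hp k hs := by
      rw [mem_RR, mul_one]
      exact inv_mem hZ
    rw [← map_pow, sq_of_central (central_of_RR' hp hs p hk (K.one s hs) h5), map_one]
  have single : ∀ {s : ℕ} (hs : s < D.nroots), x ∈ (ph hp k hs).range →
      x ∈ Subgroup.centralizer ((ph hp k hs).range : Set ↥(D.group k)) → x ^ 2 = 1 := by
    rintro s hs ⟨Z, hZ⟩ h5
    rw [← hZ] at h5 ⊢
    exact one hs Z h5
  rcases K.ort b hb with h | ⟨e2, e3, e4, e5, e6⟩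
  · have h5 : (ph hp k hb).range ⊔ (ph hp k (K.lt b hb)).range = (ph hp k hb).range := by
      have : ∀ c (hc : c < D.nroots), c = b → (ph hp k hb).range ⊔ (ph hp k hc).range = (ph hp k hb).range := by
        rintro c hc rfl
        exact sup_idem _
      exact this _ _ h
    rw [h5] at hx
    exact single hb hx h3
  · by_cases e1 : g b = b
    · have h5 : (ph hp k hb).range ⊔ (ph hp k (K.lt b hb)).range = (ph hp k hb).range := by
        have : ∀ c (hc : c < D.nroots), c = b → (ph hp k hb).range ⊔ (ph hp k hc).range = (ph hp k hb).range := by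
          rintro c hc rfl
          exact sup_idem _
        exact this _ _ e1
      rw [h5] at hx
      exact single hb hx h3
    have hcomm := ph_comm hp (k := k) hb (K.lt b hb) e1 e2 e3 e4 e5 e6
    have hnorm : (ph hp k (K.lt b hb)).range ≤ Subgroup.normalizer ((ph hp k hb).range : Set ↥(D.group k)) :=
      hcomm.trans (Subgroup.centralizer_le_normalizer _)
    have h5 : x ∈ (((ph hp k hb).range ⊔ (ph hp k (K.lt b hb)).range : Subgroup ↥(D.group k)) :
        Set ↥(D.group k)) := hx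
    rw [Subgroup.coe_mul_of_right_le_normalizer_left _ _ hnorm] at h5
    obtain ⟨_, ⟨Z, rfl⟩, _, ⟨Z', rfl⟩, h6⟩ := h5
    have h6' : ph hp k hb Z * ph hp k (K.lt b hb) Z' = x := h6
    have h7 : ph hp k (K.lt b hb) Z' ∈ Subgroup.centralizer ((ph hp k hb).range : Set ↥(D.group k)) :=
      hcomm ⟨Z', rfl⟩
    have h8 : ph hp k hb Z ∈ Subgroup.centralizer ((ph hp k (K.lt b hb)).range : Set ↥(D.group k)) := by
      rw [Subgroup.mem_centralizer_iff]
      intro y hy
      exact (Subgroup.mem_centralizer_iff.1 (hcomm hy) _ ⟨Z, rfl⟩).symm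
    have h9 : ph hp k hb Z ∈ Subgroup.centralizer ((ph hp k hb).range : Set ↥(D.group k)) := by
      have e : ph hp k hb Z = x * (ph hp k (K.lt b hb) Z')⁻¹ := by rw [← h6', mul_inv_cancel_right]
      rw [e]
      exact mul_mem h3 (inv_mem h7)
    have h10 : ph hp k (K.lt b hb) Z' ∈ Subgroup.centralizer ((ph hp k (K.lt b hb)).range : Set ↥(D.group k)) := by
      have e : ph hp k (K.lt b hb) Z' = (ph hp k hb Z)⁻¹ * x := by rw [← h6', inv_mul_cancel_left]
      rw [e]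
      exact mul_mem (inv_mem h8) h4
    have hc : Commute (ph hp k hb Z) (ph hp k (K.lt b hb) Z') := Subgroup.mem_centralizer_iff.1 h7 _ ⟨Z, rfl⟩
    rw [← h6', hc.mul_pow, one hb Z h9, one _ Z' h10, mul_one]

/-- the ranges lie in `LC` -/
theorem Q_le_LC [IsAlgClosed k] {g : ℕ → ℕ} (K : Ort D g) {b : ℕ} (hb : b < D.nroots) :
    (ph hp k hb).range ⊔ (ph hp k (K.lt b hb)).range ≤ LC hp (k := k) hb ∧
    (ph hp k hb).range ⊔ (ph hp k (K.lt b hb)).range ≤ LC hp (k := k) (K.lt b hb) := by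
  have hcb := K.lt b hb
  rcases K.ort b hb with h | ⟨e2, e3, e4, e5, e6⟩
  · have : ∀ c' (hc' : c' < D.nroots), c' = b → (ph hp k hb).range ⊔ (ph hp k hc').range ≤ LC hp (k := k) hb ∧
        (ph hp k hb).range ⊔ (ph hp k hc').range ≤ LC hp (k := k) hc' := by
      rintro c' hc' rfl
      exact ⟨sup_le (ph_le_LC hp hb) (ph_le_LC hp hb), sup_le (ph_le_LC hp hb) (ph_le_LC hp hb)⟩
    exact this (g b) hcb h
  · by_cases e1 : g b = b
    · have : ∀ c' (hc' : c' < D.nroots), c' = b → (ph hp k hb).range ⊔ (ph hp k hc').range ≤ LC hp (k := k) hb ∧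
          (ph hp k hb).range ⊔ (ph hp k hc').range ≤ LC hp (k := k) hc' := by
        rintro c' hc' rfl
        exact ⟨sup_le (ph_le_LC hp hb) (ph_le_LC hp hb), sup_le (ph_le_LC hp hb) (ph_le_LC hp hb)⟩
      exact this (g b) hcb e1
    · have hcomm := ph_comm hp (k := k) hb hcb e1 e2 e3 e4 e5 e6
      have hcomm' : (ph hp k hb).range ≤ Subgroup.centralizer ((ph hp k hcb).range : Set ↥(D.group k)) := by
        intro x hx
        rw [Subgroup.mem_centralizer_iff]
        intro y hy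
        exact (Subgroup.mem_centralizer_iff.1 (hcomm hy) _ hx).symm
      exact ⟨sup_le (ph_le_LC hp hb) (hcomm.trans (cent_le_LC hp hb)),
        sup_le (hcomm'.trans (cent_le_LC hp hcb)) (ph_le_LC hp hcb)⟩

/-- the torus normalises -/
theorem Q_norm [IsAlgClosed k] (p : ℕ) [Fact p.Prime] [CharP k p] (hk : LocFin k) {g : ℕ → ℕ} (K : Ort D g) {b : ℕ}
    (hb : b < D.nroots) : ∀ t ∈ TT D k, ∀ x ∈ (ph hp k hb).range ⊔ (ph hp k (K.lt b hb)).range,
      t * x * t⁻¹ ∈ (ph hp k hb).range ⊔ (ph hp k (K.lt b hb)).range := by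
  intro t ht x hx
  have h5 : (ph hp k hb).range ⊔ (ph hp k (K.lt b hb)).range ≤
      ((ph hp k hb).range ⊔ (ph hp k (K.lt b hb)).range).comap (MulAut.conj t).toMonoidHom := by
    refine sup_le (fun y hy => ?_) (fun y hy => ?_)
    · exact Subgroup.mem_sup_left (LC_norm hp hb (TT_le_LC hp hb p hk ht) hy)
    · exact Subgroup.mem_sup_right (LC_norm hp (K.lt b hb) (TT_le_LC hp (K.lt b hb) p hk ht) hy)
  exact h5 hx

end Q

end Cfsg.Agent.H167.RV
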