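import Cfsg.Agent.H167.RV.TorA
import Cfsg.Agent.Lib.CoprimeHyperplane

/-!
# TEAM RV: `t`-groups normalised by toral `s`-elements are toral (helper167)

`torA` : `Y` a group of toral elements of prime order `s ≠ 2` of a finite `G ≤ D.group k`; the roots which are
proportional on `Y` are `± b, ± g b` (`ChkS`), `b` and `g b` strongly orthogonal (`Ort`). Then the `t`-subgroups of
`G` normalised by `Y`, `t ≠ 2, s, p`, lie in the torus.
-/

set_option autoImplicit false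
set_option linter.unusedSectionVars false

namespace Cfsg.Agent.H167.RV

open CoxeterSystem Cfsg Cfsg.Lie Cfsg.Lie.ChevalleyDatum
open Cfsg.Agent.ChevalleyStructure Cfsg.Agent.ChevalleyStructure.Elts Cfsg.Agent.ChevalleyStructure.CoxeterGeom
  Cfsg.Agent.ChevalleyStructure.CoxeterGeomTypes Cfsg.Agent.ChevalleyStructure.NPerm
open Cfsg.Agent.Tits.Roots Cfsg.Agent.Tits.Core Cfsg.Agent.Nodes Cfsg.Agent.Nodes.Reps Cfsg.Agent.Nodes.BNOf
  Cfsg.Agent.Nodes.RGDChev Cfsg.Agent.Nodes.Bruhat Cfsg.Agent.Nodes.NormalForm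
open Cfsg.Agent.KFacts.RgdField Cfsg.Agent.KFacts.RgdChevCoord
open Cfsg.Agent.BpExc Cfsg.Agent.BpExc.TorCent Cfsg.Agent.BpExc.TorChev Cfsg.Agent.BpExc.Tow
  Cfsg.Agent.BpExc.TowChev Cfsg.Agent.BpExc.Fr Cfsg.Agent.BpExc.Pair Cfsg.Agent.BpExc.LangFr Cfsg.Agent.GpExc.Field
  Cfsg.Agent.BpExc.TorAll
open Cfsg.Agent.H469.Exc Cfsg.Agent.H469.Exc.SigFr
open Cfsg.Agent.Nodes.RGDFoldSL
open Cfsg.Agent.ChevalleyStructure.SL2Hom (up lo mem_closure_SL2)
open Cfsg.Agent.H167.EX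
open Module

universe u v

/-! ### group theory -/

/-- a `t`-group is commutative if the central commutators are trivial -/
theorem comm_of_central {G : Type*} [Group G] [Finite G] {t : ℕ} (ht : t.Prime) (hG : IsPGroup t G)
    (h : ∀ v w : G, (∀ x : G, (v * w * v⁻¹ * w⁻¹) * x = x * (v * w * v⁻¹ * w⁻¹)) → v * w * v⁻¹ * w⁻¹ = 1) :
    ∀ v w : G, v * w = w * v := by
  have hft : Fact t.Prime := ⟨ht⟩
  by_contra hcon
  push Not at hcon
  obtain ⟨v0, w0, h0⟩ := hcon
  have hnt : Nontrivial (G ⧸ Subgroup.center G) := by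
    refine ⟨⟨(v0 : G ⧸ Subgroup.center G), 1, fun h1 => ?_⟩⟩
    rw [QuotientGroup.eq_one_iff, Subgroup.mem_center_iff] at h1
    exact h0 (h1 w0).symm
  have hq : IsPGroup t (G ⧸ Subgroup.center G) := hG.to_quotient _
  have := hq.center_nontrivial
  obtain ⟨⟨c, hc⟩, hc1⟩ := exists_ne (1 : Subgroup.center (G ⧸ Subgroup.center G))
  obtain ⟨v, rfl⟩ := QuotientGroup.mk_surjective c
  apply hc1
  apply Subtype.ext
  rw [Subgroup.coe_one]
  rw [QuotientGroup.eq_one_iff, Subgroup.mem_center_iff]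
  intro w
  have h1 : ((v * w * v⁻¹ * w⁻¹ : G) : G ⧸ Subgroup.center G) = 1 := by
    have h2 := Subgroup.mem_center_iff.1 hc (w : G ⧸ Subgroup.center G)
    rw [QuotientGroup.mk_mul, QuotientGroup.mk_mul, QuotientGroup.mk_mul, ← h2, QuotientGroup.mk_inv,
      QuotientGroup.mk_inv]
    group
  rw [QuotientGroup.eq_one_iff, Subgroup.mem_center_iff] at h1
  have h2 := h v w fun x => (h1 x).symm
  have e : v * w = v * w * v⁻¹ * w⁻¹ * (w * v) := by group
  rw [e, h2, one_mul]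

theorem mem_of_pow_cop {G : Type*} [Group G] {K : Subgroup G} {v : G} {m n : ℕ} (hm : m.Coprime n) (hv : v ^ m = 1)
    (h : v ^ n ∈ K) : v ∈ K := by
  have hcop : Nat.Coprime (orderOf v) n := Nat.Coprime.coprime_dvd_left (orderOf_dvd_of_pow_eq_one hv) hm
  exact (Subgroup.zpowers_le.2 h) (mem_zpowers_pow_iff.2 hcop.symm)

/-- the conditions on the exponents `e j b` of the toral elements, mod `s` -/
structure ChkS (D : ChevalleyDatum) (s : ℕ) {ι : Type*} (e : ι → ℕ → ℤ) (g : ℕ → ℕ) : Prop where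
  ne : ∀ b < D.nroots, ∃ j, ¬ (s : ℤ) ∣ e j b
  sep : ∀ b < D.nroots, ∀ b' < D.nroots, ∀ c : ℤ, (∀ j, (s : ℤ) ∣ e j b' - c * e j b) →
    b' = b ∨ b' = D.neg b ∨ b' = g b ∨ b' = D.neg (g b)

theorem zpow_prim {k : Type u} [Field k] {ζ : k} {s : ℕ} (hs : s.Prime) (hζ : IsPrimitiveRoot ζ s) {a b : ℤ}
    (h : ζ ^ a = ζ ^ b) : (s : ℤ) ∣ a - b := by
  have h0 : ζ ≠ 0 := hζ.ne_zero hs.ne_zero
  have h1 : ζ ^ (a - b) = 1 := by rw [zpow_sub₀ h0, h, div_self (zpow_ne_zero _ h0)]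
  exact (hζ.zpow_eq_one_iff_dvd _).1 h1

section

variable {D : ChevalleyDatum} {l : ℕ} {M : CoxeterMatrix (Fin l)} (hp : IsType D l M) {k : Type u} [Field k]

theorem ch_zpow' (p : ℕ) [Fact p.Prime] [CharP k p] (hk : LocFin k) {b : ℕ} (hb : b < D.nroots)
    {x : ↥(D.group k)} (hx : x ∈ TT D k) (c : ℤ) : ch hp (vec D l b) (x ^ c) = ch hp (vec D l b) x ^ c := by
  obtain ⟨n, rfl | rfl⟩ := c.eq_nat_or_neg
  · rw [zpow_natCast, zpow_natCast, ch_pow hp p hk hb hx]
  · have hxn := pow_mem hx n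
    have h4 : ch hp (vec D l b) ((x ^ n)⁻¹) * ch hp (vec D l b) x ^ n = 1 := by
      rw [← ch_pow hp p hk hb hx, ← ch_mul hp p hk hb (inv_mem hxn) hxn, inv_mul_cancel, ch_one hp p hk hb]
    rw [zpow_neg, zpow_natCast, zpow_neg, zpow_natCast]
    exact eq_inv_of_mul_eq_one_left h4

/-- **`t`-groups normalised by the toral elements of order `s` are toral.** -/
theorem torA [IsAlgClosed k] (p : ℕ) [Fact p.Prime] [CharP k p] (hk : LocFin k) {s : ℕ} (hsp : s.Prime) (hs2 : s ≠ 2)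
    {ζ : k} (hζ : IsPrimitiveRoot ζ s) {ι : Type*} {e : ι → ℕ → ℤ} {g : ℕ → ℕ} (K : ChkS D s e g) (O : Ort D g)
    (h0 : 0 < D.nroots) {G : Type*} [Group G] [Finite G] (f : G →* ↥(D.group k)) (hf : Function.Injective f)
    {Y : Subgroup G} (hYT : ∀ y ∈ Y, f y ∈ TT D k) (hYs : ∀ y ∈ Y, y ^ s = 1) (y : ι → G) (hy : ∀ j, y j ∈ Y)
    (hch : ∀ j, ∀ b < D.nroots, ch hp (vec D l b) (f (y j)) = ζ ^ e j b) {t : ℕ} (ht : t.Prime) (ht2 : t ≠ 2)
    (hts : t ≠ s) (htp : t ≠ p) {R : Subgroup G} (hR : IsPGroup t R) (hYR : ∀ y ∈ Y, ∀ x ∈ R, y * x * y⁻¹ ∈ R) :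
    ∀ x ∈ R, f x ∈ TT D k := by
  have hfs : Fact s.Prime := ⟨hsp⟩
  have hft : Fact t.Prime := ⟨ht⟩
  have hpp : p.Prime := Fact.out
  -- `Y` is elementary abelian
  have hYc : ∀ a ∈ Y, ∀ b ∈ Y, a * b = b * a := by
    intro a ha b hb
    apply hf
    rw [map_mul, map_mul]
    exact TT_comm hp _ (hYT a ha) _ (hYT b hb)
  have hYe : IsElementaryAbelian s Y := by
    refine ⟨⟨⟨fun a b => Subtype.ext (hYc a a.2 b b.2)⟩⟩, fun a ha => hYs a ha⟩
  have hY1 : Y ≠ ⊥ := by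
    rintro rfl
    obtain ⟨j, hj⟩ := K.ne 0 h0
    have h1 := hch j 0 h0
    rw [Subgroup.mem_bot.1 (hy j), map_one, ch_one hp p hk h0] at h1
    apply hj
    have h2 : ζ ^ e j 0 = ζ ^ (0 : ℤ) := by rw [zpow_zero, ← h1]
    have h3 := zpow_prim hsp hζ h2
    rwa [sub_zero] at h3
  have hRc : ¬ s ∣ Nat.card R := by
    intro h
    obtain ⟨n, hn⟩ := IsPGroup.iff_card.1 hR
    rw [hn] at h
    exact hts ((Nat.prime_dvd_prime_iff_eq hsp ht).1 (hsp.dvd_of_dvd_pow h)).symm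
  have hYn : Y ≤ Subgroup.normalizer (R : Set G) := by
    intro a ha
    have : Finite (R : Set G) := inferInstance
    exact Subgroup.mem_normalizer_fintype (fun v hv => hYR a ha v hv)
  have htodd : Odd t := ht.odd_of_ne_two ht2
  have hsodd : Odd s := hsp.odd_of_ne_two hs2
  -- the orders
  have hord : ∀ v ∈ R, ∃ n : ℕ, v ^ t ^ n = 1 := by
    intro v hv
    obtain ⟨n, hn⟩ := hR ⟨v, hv⟩
    exact ⟨n, congrArg Subtype.val hn⟩
  have hcop : ∀ n m : ℕ, (t ^ n).Coprime (s ^ m) := fun n m =>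
    Nat.Coprime.pow n m ((Nat.coprime_primes ht hsp).2 hts)
  have hlift : ∀ {K' : Subgroup ↥(D.group k)} {v : G} {m : ℕ}, v ∈ R → f v ^ s ^ m ∈ K' → f v ∈ K' := by
    intro K' v m hv h
    obtain ⟨n, hn⟩ := hord v hv
    refine mem_of_pow_cop (hcop n m) ?_ h
    rw [← map_pow, hn, map_one]
  -- no root is trivial on `Y`
  have hnoY : ∀ v ∈ R, (∀ a ∈ Y, v * a = a * v) → f v ∈ TT D k := by
    intro v hv hc
    obtain ⟨m, hm⟩ := pow_mem_set hp hk p (S := f '' (Y : Set G)) (by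
      rintro _ ⟨a, ha, rfl⟩
      exact hYT a ha) hsp (by
      rintro _ ⟨a, ha, rfl⟩
      exact ⟨1, by rw [pow_one, ← map_pow, hYs a ha, map_one]⟩) (g := f v) (by
      rintro _ ⟨a, ha, rfl⟩
      rw [← map_mul, hc a ha, map_mul])
    refine hlift hv ((sup_le (RGD.Sup_le fun a ha => ?_) le_rfl : _ ≤ TT D k) hm)
    exfalso
    obtain ⟨b, hb, rfl⟩ := (isRoot_iff hp M.toCoxeterSystem a).1 ha.1
    obtain ⟨j, hj⟩ := K.ne b hb
    have h3 := ha.2 _ ⟨y j, hy j, rfl⟩
    rw [hch j b hb] at h3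
    have h4 := zpow_prim hsp hζ (h3.trans (zpow_zero ζ).symm)
    rw [sub_zero] at h4
    exact hj h4
  -- coprime generation
  have hsup := Cfsg.Agent.Lib.CoprimeHyperplane.iSup_centralizer_hyperplane (p := s) hYe hY1 hRc hYn
  have hmain : (⨆ B : {B : Subgroup G // B ≤ Y ∧ B.relIndex Y = s},
      R ⊓ Subgroup.centralizer ((B : Subgroup G) : Set G)) ≤ (TT D k).comap f := by
    refine iSup_le ?_
    rintro ⟨B, hBY, hBi⟩
    simp only
    set C : Subgroup G := R ⊓ Subgroup.centralizer (B : Set G) with hC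
    have hpm : ∀ v ∈ C, f v ∈ SetC.MMs M.toCoxeterSystem hp.isCartan (XX D l k) (ch hp) (f '' (B : Set G)) ⊔
        TT D k := by
      intro v hv
      obtain ⟨m, hm⟩ := pow_mem_set hp hk p (S := f '' (B : Set G)) (by
        rintro _ ⟨a, ha, rfl⟩
        exact hYT a (hBY ha)) hsp (by
        rintro _ ⟨a, ha, rfl⟩
        exact ⟨1, by rw [pow_one, ← map_pow, hYs a (hBY ha), map_one]⟩) (g := f v) (by
        rintro _ ⟨a, ha, rfl⟩
        rw [← map_mul, ← Subgroup.mem_centralizer_iff.1 hv.2 a ha, map_mul])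
      exact hlift hv.1 hm
    by_cases hroot : ∃ b < D.nroots, ∀ a ∈ B, ch hp (vec D l b) (f a) = 1
    swap
    · intro v hv
      refine (sup_le (RGD.Sup_le fun a ha => ?_) le_rfl : _ ≤ TT D k) (hpm v hv)
      exfalso
      obtain ⟨b, hb, rfl⟩ := (isRoot_iff hp M.toCoxeterSystem a).1 ha.1
      exact hroot ⟨b, hb, fun a ha' => ha.2 _ ⟨a, ha', rfl⟩⟩
    obtain ⟨b, hb, hbB⟩ := hroot
    obtain ⟨j0, hj0⟩ := K.ne b hb
    have hy0B : y j0 ∉ B := by
      intro h
      have h3 := hbB _ h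
      rw [hch j0 b hb] at h3
      have h4 := zpow_prim hsp hζ (h3.trans (zpow_zero ζ).symm)
      rw [sub_zero] at h4
      exact hj0 h4
    -- `Y = B ⟨y j0⟩`
    have hYB : ∀ a ∈ Y, ∃ β ∈ B, ∃ c : ℤ, a = β * y j0 ^ c := by
      have h1 : B ⊔ Subgroup.zpowers (y j0) ≤ Y := sup_le hBY (Subgroup.zpowers_le.2 (hy j0))
      have h2 : B.relIndex (B ⊔ Subgroup.zpowers (y j0)) * (B ⊔ Subgroup.zpowers (y j0)).relIndex Y = s := by
        rw [Subgroup.relIndex_mul_relIndex _ _ _ le_sup_left h1, hBi]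
      have h3 : B.relIndex (B ⊔ Subgroup.zpowers (y j0)) ≠ 1 := by
        intro h
        rw [Subgroup.relIndex_eq_one] at h
        exact hy0B (h (Subgroup.mem_sup_right (Subgroup.mem_zpowers _)))
      have h4 : (B ⊔ Subgroup.zpowers (y j0)).relIndex Y = 1 := by
        rcases (Nat.dvd_prime hsp).1 (Dvd.intro _ h2) with h | h
        · exact absurd h h3
        · rw [h] at h2
          exact Nat.eq_of_mul_eq_mul_left hsp.pos (h2.trans (mul_one s).symm)
      rw [Subgroup.relIndex_eq_one] at h4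
      intro a ha
      have hn : Subgroup.zpowers (y j0) ≤ Subgroup.normalizer (B : Set G) := by
        rw [Subgroup.zpowers_le, Subgroup.mem_normalizer_iff]
        intro x
        constructor
        · intro hx
          rw [hYc _ (hy j0) x (hBY hx), mul_inv_cancel_right]
          exact hx
        · intro hx
          have h5 := hYc _ (hy j0) _ (hBY hx)
          have h6 : y j0 * x = x * y j0 → y j0 * x * (y j0)⁻¹ = x := fun h => by rw [h, mul_inv_cancel_right]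
          have h7 : y j0 * (y j0 * x * (y j0)⁻¹) = y j0 * x := by rw [h5, inv_mul_cancel_right]
          have h8 : y j0 * x * (y j0)⁻¹ = x := mul_left_cancel h7
          rwa [h8] at hx
      have h5 : a ∈ ((B ⊔ Subgroup.zpowers (y j0) : Subgroup G) : Set G) := h4 ha
      rw [Subgroup.coe_mul_of_right_le_normalizer_left _ _ hn] at h5
      obtain ⟨β, hβ, z, hz, rfl⟩ := h5
      obtain ⟨c, rfl⟩ := Subgroup.mem_zpowers_iff.1 hz
      exact ⟨β, hβ, c, rfl⟩
    -- the roots trivial on `B`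
    have hroots : ∀ b' < D.nroots, (∀ a ∈ B, ch hp (vec D l b') (f a) = 1) →
        b' = b ∨ b' = D.neg b ∨ b' = g b ∨ b' = D.neg (g b) := by
      intro b' hb' hb'B
      have hcong : ∀ {b1 : ℕ}, b1 < D.nroots → (∀ a ∈ B, ch hp (vec D l b1) (f a) = 1) → ∀ (j : ι) {β : G} {c : ℤ},
          β ∈ B → y j = β * y j0 ^ c → (s : ℤ) ∣ e j b1 - c * e j0 b1 := by
        intro b1 hb1 h1 j β c hβ hjc
        apply zpow_prim hsp hζ
        rw [← hch j b1 hb1, hjc, map_mul, ch_mul hp p hk hb1 (hYT β (hBY hβ)) (by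
          rw [map_zpow]; exact zpow_mem (hYT _ (hy j0)) c), h1 β hβ, one_mul, map_zpow,
          ch_zpow' hp p hk hb1 (hYT _ (hy j0)), hch j0 b1 hb1, ← zpow_mul, mul_comm]
      have hcs : IsCoprime (e j0 b) (s : ℤ) := by
        rw [isCoprime_comm]
        exact (Nat.prime_iff_prime_int.1 hsp).coprime_iff_not_dvd.2 hj0
      obtain ⟨a1, a2, ha12⟩ := hcs
      refine K.sep b hb b' hb' (e j0 b' * a1) fun j => ?_
      obtain ⟨β, hβ, c, hjc⟩ := hYB (y j) (hy j)
      obtain ⟨z1, hz1⟩ := hcong hb hbB j hβ hjc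
      obtain ⟨z2, hz2⟩ := hcong hb' hb'B j hβ hjc
      refine ⟨z2 + c * e j0 b' * a2 - e j0 b' * a1 * z1, ?_⟩
      linear_combination hz2 - e j0 b' * a1 * hz1 - c * e j0 b' * ha12
    set c := g b with hcdef
    have hcb : c < D.nroots := O.lt b hb
    set Q : Subgroup ↥(D.group k) := (ph hp k hb).range ⊔ (ph hp k hcb).range with hQ
    have hX1 : ∀ {s : ℕ} (hs : s < D.nroots), XX D l k (vec D l s) ≤ (ph hp k hs).range := by
      intro s hs y hy
      obtain ⟨t, ht⟩ := (LangThm.mem_XX_vec hp hs).1 hy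
      exact ⟨up t, by rw [ph_up]; exact (Subtype.ext ht : y = xs hp.inList s t).symm⟩
    have hX2 : ∀ {s : ℕ} (hs : s < D.nroots), XX D l k (vec D l (D.neg s)) ≤ (ph hp k hs).range := by
      intro s hs y hy
      obtain ⟨t, ht⟩ := (LangThm.mem_XX_vec hp (neg_lt hp.inList hs)).1 hy
      exact ⟨lo t, by rw [ph_lo]; exact (Subtype.ext ht : y = xs hp.inList (D.neg s) t).symm⟩
    have hMQ : SetC.MMs M.toCoxeterSystem hp.isCartan (XX D l k) (ch hp) (f '' (B : Set G)) ≤ Q := by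
      refine RGD.Sup_le fun a ha => ?_
      obtain ⟨b', hb', rfl⟩ := (isRoot_iff hp M.toCoxeterSystem a).1 ha.1
      rcases hroots b' hb' (fun a ha' => ha.2 _ ⟨a, ha', rfl⟩) with e | e | e | e
      · rw [e]; exact (hX1 hb).trans le_sup_left
      · rw [e]; exact (hX2 hb).trans le_sup_left
      · rw [e]; exact (hX1 hcb).trans le_sup_right
      · rw [e]; exact (hX2 hcb).trans le_sup_right
    have hCQ : ∀ v ∈ C, f v ∈ Q ⊔ TT D k := fun v hv => (sup_le_sup_right hMQ _ : _ ≤ _) (hpm v hv)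
    have hQ1 := Q_le_LC hp (k := k) O hb
    have hT1 := TT_le_LC hp hb p hk
    have hT2 := TT_le_LC hp hcb p hk
    have hQn := Q_norm hp p hk O hb
    -- elements of `Q` of odd order centralising both
    have hkill : ∀ u ∈ C, f u ∈ Q → f u ∈ Subgroup.centralizer ((ph hp k hb).range : Set ↥(D.group k)) →
        f u ∈ Subgroup.centralizer ((ph hp k hcb).range : Set ↥(D.group k)) → u = 1 := by
      intro u hu h1 h2 h3
      have h4 := sq_of_cent' hp p hk O hb h1 h2 h3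
      obtain ⟨n, hn⟩ := hord u hu.1
      apply hf
      rw [map_one]
      exact eq_one_of_odd h4 (htodd.pow (n := n)) (by rw [← map_pow, hn, map_one])
    -- `C` is commutative
    have hCcomm : ∀ v ∈ C, ∀ w ∈ C, v * w = w * v := by
      have hCp : IsPGroup t C := hR.to_le inf_le_left
      have := comm_of_central (G := C) ht hCp (by
        rintro ⟨v, hv⟩ ⟨w, hw⟩ hcen
        have hu : v * w * v⁻¹ * w⁻¹ ∈ C := mul_mem (mul_mem (mul_mem hv hw) (inv_mem hv)) (inv_mem hw)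
        have hu1 : v * w * v⁻¹ * w⁻¹ * v = v * (v * w * v⁻¹ * w⁻¹) := congrArg Subtype.val (hcen ⟨v, hv⟩)
        have hu2 : v * w * v⁻¹ * w⁻¹ * w = w * (v * w * v⁻¹ * w⁻¹) := congrArg Subtype.val (hcen ⟨w, hw⟩)
        have hu1' := congrArg f hu1
        have hu2' := congrArg f hu2
        simp only [map_mul, map_inv] at hu1' hu2'
        obtain ⟨n1, hn1⟩ := hord v hv.1
        obtain ⟨n2, hn2⟩ := hord w hw.1
        have hv' : f v ^ t ^ (n1 + n2) = 1 := by
          rw [← map_pow, pow_add, pow_mul, hn1, one_pow, map_one]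
        have hw' : f w ^ t ^ (n1 + n2) = 1 := by
          rw [← map_pow, pow_add, mul_comm, pow_mul, hn2, one_pow, map_one]
        have hodd : Odd (t ^ (n1 + n2)) := htodd.pow
        have hvQ := hCQ v hv
        have hwQ := hCQ w hw
        have hvw1 := comm_LC' hp hb p hk (O.one b hb) ((sup_le hQ1.1 hT1 : _ ≤ LC hp (k := k) hb) hvQ)
          ((sup_le hQ1.1 hT1 : _ ≤ LC hp (k := k) hb) hwQ) hodd hv' hw' hu1' hu2'
        have hvw2 := comm_LC' hp hcb p hk (O.one c hcb) ((sup_le hQ1.2 hT2 : _ ≤ LC hp (k := k) hcb) hvQ)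
          ((sup_le hQ1.2 hT2 : _ ≤ LC hp (k := k) hcb) hwQ) hodd hv' hw' hu1' hu2'
        have huQ := comm_mem_of_norm (TT_comm hp) hQn hvQ hwQ
        have e : f (v * w * v⁻¹ * w⁻¹) = f v * f w * (f v)⁻¹ * (f w)⁻¹ := by simp only [map_mul, map_inv]
        have hk1 : v * w * v⁻¹ * w⁻¹ = 1 :=
          hkill _ hu (by rw [e]; exact huQ) (by rw [e]; exact hvw1) (by rw [e]; exact hvw2)
        exact Subtype.ext hk1)
      intro v hv w hw
      exact congrArg Subtype.val (this ⟨v, hv⟩ ⟨w, hw⟩)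
    -- `Y` centralises `C`
    intro v hv
    refine hnoY v hv.1 fun a ha => ?_
    have hav : a * v * a⁻¹ ∈ C := by
      refine ⟨hYR a ha v hv.1, ?_⟩
      refine Subgroup.mem_centralizer_iff.2 fun β hβ => ?_
      have h1 : β * v = v * β := Subgroup.mem_centralizer_iff.1 hv.2 β hβ
      have h2 := hYc β (hBY hβ) a ha
      have h3 := hYc β (hBY hβ) a⁻¹ (inv_mem ha)
      calc β * (a * v * a⁻¹) = (β * a) * v * a⁻¹ := by group
        _ = a * (β * v) * a⁻¹ := by rw [h2]; group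
        _ = a * v * (β * a⁻¹) := by rw [h1]; group
        _ = a * v * a⁻¹ * β := by rw [h3]; group
    have hu : a * v * a⁻¹ * v⁻¹ ∈ C := mul_mem hav (inv_mem hv)
    obtain ⟨n, hn⟩ := hord v hv.1
    have hv' : f v ^ t ^ n = 1 := by rw [← map_pow, hn, map_one]
    have ha' : f a ^ s = 1 := by rw [← map_pow, hYs a ha, map_one]
    have hcc := congrArg f (hCcomm _ hav v hv)
    simp only [map_mul, map_inv] at hcc
    have htk : ((t ^ n : ℕ) : k) ≠ 0 := by
      intro h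
      rw [CharP.cast_eq_zero_iff k p] at h
      exact htp ((Nat.prime_dvd_prime_iff_eq hpp ht).1 (hpp.dvd_of_dvd_pow h)).symm
    have hvQ := hCQ v hv
    have hvw1 := comm_LC_norm hp hb p hk (O.one b hb) ((sup_le hQ1.1 hT1 : _ ≤ LC hp (k := k) hb) hvQ)
      (hT1 (hYT a ha)) (htodd.pow (n := n)) htk hv' hsodd ha' hcc
    have hvw2 := comm_LC_norm hp hcb p hk (O.one c hcb) ((sup_le hQ1.2 hT2 : _ ≤ LC hp (k := k) hcb) hvQ)
      (hT2 (hYT a ha)) (htodd.pow (n := n)) htk hv' hsodd ha' hcc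
    have huQ := comm_mem_of_norm (TT_comm hp) hQn (Subgroup.mem_sup_right (hYT a ha) : f a ∈ Q ⊔ TT D k) hvQ
    have e1 : f (a * v * a⁻¹ * v⁻¹) = f a * f v * (f a)⁻¹ * (f v)⁻¹ := by simp only [map_mul, map_inv]
    have h5 := hkill _ hu (by rw [e1]; exact huQ) (by rw [e1]; exact hvw1) (by rw [e1]; exact hvw2)
    have h6 : a * v = v * a := by
      have e : a * v = a * v * a⁻¹ * v⁻¹ * (v * a) := by group
      rw [e, h5, one_mul]
    exact h6.symm
  rw [hsup] at hmain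
  exact fun x hx => hmain hx

end

end Cfsg.Agent.H167.RV
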