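import Cfsg.Agent.H167.RV.TorB
import Cfsg.Agent.H167.RV.Hall
import Cfsg.Agent.H572.ExcE

/-!
# TEAM RV: `FHall` from toral elements of order `s` (helper167)
-/

set_option autoImplicit false
set_option linter.unusedSectionVars false

namespace Cfsg.Agent.H167.RV

open CoxeterSystem Cfsg Cfsg.Lie Cfsg.Lie.ChevalleyDatum
open Cfsg.Agent.ChevalleyStructure Cfsg.Agent.ChevalleyStructure.Elts Cfsg.Agent.ChevalleyStructure.CoxeterGeom
  Cfsg.Agent.ChevalleyStructure.CoxeterGeomTypes Cfsg.Agent.ChevalleyStructure.NPerm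
open Cfsg.Agent.Tits.Roots Cfsg.Agent.Tits.Core Cfsg.Agent.Nodes Cfsg.Agent.Nodes.Reps Cfsg.Agent.Nodes.BNOf
  Cfsg.Agent.Nodes.RGDChev Cfsg.Agent.Nodes.Bruhat
open Cfsg.Agent.KFacts.RgdField Cfsg.Agent.KFacts.RgdChevCoord Cfsg.Agent.BpExc.TorCent Cfsg.Agent.BpExc.TorChev
open Cfsg.Agent.GpExc.Field Cfsg.Agent.BpExc.Tow Cfsg.Agent.BpExc.TowChev Cfsg.Agent.BpExc.Fr
  Cfsg.Agent.BpExc.LangFr Cfsg.Agent.H129.TorusChar Cfsg.Agent.H129.TorusMain Cfsg.Agent.H123.ExcZ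
open Cfsg.Agent.BpExc Cfsg.Agent.H795.LangT Cfsg.Agent.H795.Core Cfsg.Agent.H795.NotAbT
open Cfsg.Agent.H572.ExcA Cfsg.Agent.H572.ExcB Cfsg.Agent.H572.ExcC Cfsg.Agent.H572.ExcD Cfsg.Agent.H572.LatQ
  Cfsg.Agent.H572.LatForm Cfsg.Agent.H572.ExcE
open Cfsg.Agent.H988.CPi Cfsg.Agent.H571.RV Cfsg.Agent.H553.OddHall
open Subgroup

universe u v

variable {D : ChevalleyDatum} {l : ℕ} {M : CoxeterMatrix (Fin l)} {hp : IsType D l M}
  {k : Type u} [Field k] [IsAlgClosed k] {r e : ℕ} [Fact r.Prime] [CharP k r]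
  {G : Type v} [Group G] {κ : G →* ↥(D.group k)} {τ : MulAut ↥(D.group k)}
  {θ : (Fin l → ℤ) ≃+ (Fin l → ℤ)}

/-- the toral elements of order `s` -/
def TY (κ : G →* ↥(D.group k)) (hinj : Function.Injective κ) (hp : IsType D l M) (s : ℕ) : Subgroup G where
  carrier := {x | x ∈ TG κ ∧ x ^ s = 1}
  one_mem' := ⟨one_mem _, one_pow _⟩
  mul_mem' := by
    rintro a b ⟨ha, ha1⟩ ⟨hb, hb1⟩
    refine ⟨mul_mem ha hb, ?_⟩
    have hc : Commute a b := by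
      apply hinj
      rw [map_mul, map_mul]
      exact TT_comm hp _ ha _ hb
    rw [hc.mul_pow, ha1, hb1, one_mul]
  inv_mem' := by
    rintro a ⟨ha, ha1⟩
    exact ⟨inv_mem ha, by rw [inv_pow, ha1, inv_one]⟩

/-- **`FHall` from the toral elements of order `s`.** -/
theorem fhall_emb [Finite G] (hk : LocFin k) (h : Emb hp r e κ τ θ) {s : ℕ} (hs : s.Prime) (hs2 : s ≠ 2) {ζ : k}
    (hζ : IsPrimitiveRoot ζ s) {ι : Type*} {ex : ι → ℕ → ℤ} {g : ℕ → ℕ} (K : ChkS D s ex g) (O : Ort D g)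
    (h0 : 0 < D.nroots) (a : ι → G) (ha : ∀ j, a j ∈ TG κ)
    (hax : ∀ j b, b < D.nroots → cX hp (κ (a j)) (vec D l b) = ζ ^ ex j b)
    {π : Set ℕ} (h2 : 2 ∉ π) (hsπ : s ∈ π) (hrπ : r ∉ π) (hE : ∃ H : Subgroup G, IsPiHall π H)
    (hPN : ∀ t, t.Prime → t ∈ π → t ≠ s → t ∣ Nat.card G → PairN t s G) : FHall π G := by
  have has : ∀ j, a j ^ s = 1 := by
    intro j
    apply h.inj
    have hj : κ (a j) ∈ TT D k := ha j
    rw [map_pow κ (a j) s, map_one]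
    refine cX_inj hp (pow_mem hj s) (one_mem _) fun i => ?_
    rw [cX_pow hp hj, cX_one, ← vec_simple hp i, hax j _ (simple_lt hp.inList (lt_rank hp i)), ← zpow_natCast,
      ← zpow_mul, mul_comm, zpow_mul, zpow_natCast, hζ.pow_eq_one, one_zpow]
  refine fhall_of_tor hs h2 hsπ hE (TG κ) (fun x hx y hy => ?_) (TY κ h.inj hp s) ?_ ?_ hPN
  · apply h.inj
    rw [map_mul, map_mul]
    exact TT_comm hp _ hx _ hy
  · rintro ⟨x, hx, hx1⟩
    exact ⟨1, Subtype.ext (by rw [pow_one]; exact hx1)⟩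
  · intro t ht htπ hts htG R hR hRn x hx
    refine torA hp r hk hs hs2 hζ K O h0 κ h.inj (Y := TY κ h.inj hp s) (fun y hy => hy.1) (fun y hy => hy.2) a
      (fun j => ⟨ha j, has j⟩) (fun j b hb => ?_) ht ?_ hts ?_ hR hRn x hx
    · rw [← cX_vec hp (ha j) hb]
      exact hax j b hb
    · rintro rfl
      exact h2 htπ
    · rintro rfl
      exact hrπ htπ

/-- **the full case** -/
theorem fhall_full [Finite G] (hk : LocFin k) (h : Emb hp r e κ τ θ) {d : ℕ} {Bi : Fin l → Fin l → ℤ}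
    (hB : InvC D l d Bi) (hd : d ≠ 0) {ε : ℤ} (hθ : ∀ x, θ x = ε • x)
    (hcm : ∀ a b, τ a = a → τ b = b → ∃ x, κ x = a * b * a⁻¹ * b⁻¹) {s : ℕ} [hs : Fact s.Prime] (hs2 : s ≠ 2)
    (hsr : s ≠ r) (hq : (s : ℤ) ∣ (r : ℤ) ^ e - ε) {g : ℕ → ℕ}
    (K : ChkS D s (fun (j : Fin l) b => pairing (cartanOf D l) j (vec D l b)) g) (O : Ort D g)
    (h0 : 0 < D.nroots) {π : Set ℕ} (h2 : 2 ∉ π) (hsπ : s ∈ π) (hrπ : r ∉ π) (hE : ∃ H : Subgroup G, IsPiHall π H)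
    (hPN : ∀ t, t.Prime → t ∈ π → t ≠ s → t ∣ Nat.card G → PairN t s G) : FHall π G := by
  obtain ⟨ζ, hζ⟩ := exists_zeta_pow (k := k) (r := r) (s := s) (a := 1) hsr
  rw [pow_one] at hζ
  have h1 := fun j => exists_cor_simple h hB hd hθ hcm hζ.pow_eq_one hs.out.ne_zero hq hk j
  choose a ha hax using h1
  exact fhall_emb hk h hs.out hs2 hζ K O h0 a ha (fun j b _ => hax j _) h2 hsπ hrπ hE hPN

/-- **the full case, untwisted** -/
theorem fhall_untw (hp : IsType D l M) {F : Type u} [Field F] [Fintype F] (X : Dat D l) {s : ℕ} [hs : Fact s.Prime]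
    (hs2 : s ≠ 2) (hsF : (s : F) ≠ 0) (w : M.Group) {ε : ℤ}
    (hε : ∀ x, rep M.toCoxeterSystem hp.isCartan w x = ε • x) (hq : (s : ℤ) ∣ (Fintype.card F : ℤ) - ε)
    {g : ℕ → ℕ} (K : ChkS D s (fun (j : Fin l) b => pairing (cartanOf D l) j (vec D l b)) g) (O : Ort D g)
    (h0 : 0 < D.nroots) {π : Set ℕ} (h2 : 2 ∉ π) (hsπ : s ∈ π) {p : ℕ} [CharP F p] (hpπ : p ∉ π)
    (hE : ∃ H : Subgroup ↥(D.group F), IsPiHall π H)
    (hPN : ∀ t, t.Prime → t ∈ π → t ≠ s → t ∣ Nat.card ↥(D.group F) → PairN t s ↥(D.group F)) :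
    FHall π ↥(D.group F) := by
  obtain ⟨r, e, hr, hrF, hrk, he, hqF, hk⟩ :=
    Cfsg.Agent.H129.TorusUntw.exists_closure (F := F) rfl
  have hrp : p = r := CharP.eq F ‹_› hrF
  subst hrp
  have hsr : s ≠ p := by
    rintro rfl
    exact hsF (CharP.cast_eq_zero F s)
  have hGf : Finite ↥(D.group F) := inferInstance
  have hset := setup_untw' hp X hk he hqF
  obtain ⟨κ, τ, z, hEm, hκ, hb⟩ := exists_emb (hp := hp) hk hset.1 he hset.2.1 hset.2.2.1 hset.2.2.2.1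
    hset.2.2.2.2.1 w
  have hθ : ∀ x, ((AddEquiv.refl (Fin l → ℤ)).trans (repAut M.toCoxeterSystem hp.isCartan w)) x = ε • x := hε
  have hcm' := fun a b => comm_of_comm (κ := κ) (τ := τ) hκ hb hset.2.2.2.2.2 a b
  refine fhall_full hk hEm X.hB X.hd0 hθ hcm' hs2 hsr ?_ K O h0 h2 hsπ hpπ hE hPN
  rw [hqF] at hq
  push_cast at hq ⊢
  exact hq

end Cfsg.Agent.H167.RV
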